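import Mathlib
import Cfsg.Prelude.Def_Characters

set_option autoImplicit false

/-!
# Transfer of representations to coordinate spaces

Every finite-dimensional complex representation is equivalent to one on `Fin n → ℂ`, so its
character is a `Cfsg.IsCharacter`, and an `IsIrrCharacter` when irreducible.
-/

namespace Cfsg.Agent.Lib.CharT.Transfer

universe u v w

variable {G : Type u} [Group G] {V : Type v} {W : Type w}
  [AddCommGroup V] [Module ℂ V] [AddCommGroup W] [Module ℂ W]

/-- Transport of a representation along a linear equivalence. -/
noncomputable def transport (ρ : Representation ℂ G V) (e : V ≃ₗ[ℂ] W) : Representation ℂ G W where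
  toFun g := e.toLinearMap ∘ₗ ρ g ∘ₗ e.symm.toLinearMap
  map_one' := by ext; simp
  map_mul' x y := by ext; simp

@[simp] lemma transport_apply (ρ : Representation ℂ G V) (e : V ≃ₗ[ℂ] W) (g : G) (w : W) :
    transport ρ e g w = e (ρ g (e.symm w)) := rfl

/-- The character does not change under transport. -/
lemma character_transport (ρ : Representation ℂ G V) (e : V ≃ₗ[ℂ] W) :
    (transport ρ e).character = ρ.character := by
  funext g
  change LinearMap.trace ℂ W (e.toLinearMap ∘ₗ ρ g ∘ₗ e.symm.toLinearMap) = LinearMap.trace ℂ V (ρ g)
  exact LinearMap.trace_conj' (ρ g) e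

/-- Irreducibility is preserved under transport. -/
lemma transport_irreducible (ρ : Representation ℂ G V) (e : V ≃ₗ[ℂ] W) (h : ρ.IsIrreducible) :
    (transport ρ e).IsIrreducible := by
  classical
  -- order isomorphism between subrepresentations
  let f : Subrepresentation ρ ≃o Subrepresentation (transport ρ e) :=
    { toFun := fun U => ⟨U.toSubmodule.map e.toLinearMap, by
        rintro g _ ⟨v, hv, rfl⟩
        refine ⟨ρ g v, U.apply_mem_toSubmodule g hv, ?_⟩
        simp⟩
      invFun := fun U => ⟨U.toSubmodule.map e.symm.toLinearMap, by
        rintro g _ ⟨v, hv, rfl⟩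
        refine ⟨transport ρ e g v, U.apply_mem_toSubmodule g hv, ?_⟩
        simp⟩
      left_inv := fun U => by
        apply Subrepresentation.toSubmodule_injective
        ext v
        simp
      right_inv := fun U => by
        apply Subrepresentation.toSubmodule_injective
        ext v
        simp
      map_rel_iff' := by
        intro a b
        change (a.toSubmodule.map e.toLinearMap ≤ b.toSubmodule.map e.toLinearMap) ↔
          a.toSubmodule ≤ b.toSubmodule
        constructor
        · intro hab v hv
          obtain ⟨u, hu, hue⟩ := hab (Submodule.mem_map_of_mem hv)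
          have : u = v := e.injective hue
          exact this ▸ hu
        · exact Submodule.map_mono }
  exact f.symm.isSimpleOrder

/-- Any finite-dimensional complex representation has a character in the sense of `IsCharacter`. -/
theorem isCharacter_character (ρ : Representation ℂ G V) [FiniteDimensional ℂ V] :
    Cfsg.IsCharacter G ρ.character := by
  let e : V ≃ₗ[ℂ] (Fin (Module.finrank ℂ V) → ℂ) := LinearEquiv.ofFinrankEq _ _ (by simp)
  exact ⟨_, transport ρ e, character_transport ρ e⟩

/-- A finite-dimensional irreducible complex representation gives an `IsIrrCharacter`. -/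
theorem isIrrCharacter_character (ρ : Representation ℂ G V) [FiniteDimensional ℂ V]
    (h : ρ.IsIrreducible) : Cfsg.IsIrrCharacter G ρ.character := by
  let e : V ≃ₗ[ℂ] (Fin (Module.finrank ℂ V) → ℂ) := LinearEquiv.ofFinrankEq _ _ (by simp)
  exact ⟨_, transport ρ e, transport_irreducible ρ e h, character_transport ρ e⟩

end Cfsg.Agent.Lib.CharT.Transfer
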